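import Cfsg.Agent.CLAS.D4.B5
import Cfsg.Agent.S3072
import Cfsg.Agent.S1241

/-!
# Block B: transfer through Alperin's fusion theorem, and the local analysis it needs
-/

set_option autoImplicit false
set_option linter.unusedSectionVars false

namespace CL.D4.B

variable {G : Type*} [Group G] {Cm Y : G → G → Prop}

theorem oddify [Finite G] (g : G) {m : ℕ} (hm : Odd m) : ∃ n, Odd (orderOf (g ^ n)) ∧ n ≡ 1 [MOD m] := by
  obtain ⟨k, l, hl, e⟩ := Nat.exists_eq_two_pow_mul_odd (orderOf_pos g).ne'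
  refine ⟨(2 ^ m.totient) ^ k, hl.of_dvd_nat (orderOf_dvd_of_pow_eq_one ?_), by
    simpa using (Nat.ModEq.pow_totient (Nat.coprime_two_left.2 hm)).pow k⟩
  obtain ⟨j, hj⟩ : ∃ j, m.totient = j + 1 := ⟨_, (Nat.succ_pred_eq_of_pos (Nat.totient_pos.2 hm.pos)).symm⟩
  rw [← pow_mul, ← orderOf_dvd_iff_pow_eq_one, e, hj, pow_succ', mul_pow]
  exact ⟨(2 ^ j) ^ k, by ring⟩

theorem pow_norm {H : Subgroup G} {x : G} (nx : ∀ h ∈ H, x * h * x⁻¹ ∈ H) (n : ℕ) :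
    ∀ h ∈ H, x ^ n * h * (x ^ n)⁻¹ ∈ H := by
  induction n with
  | zero => simp
  | succ n ih => exact fun h hh => by simpa [pow_succ', mul_assoc] using nx _ (ih h hh)

theorem inv_norm [Finite G] {H : Subgroup G} {x : G} (nx : ∀ h ∈ H, x * h * x⁻¹ ∈ H) : ∀ h ∈ H, x⁻¹ * h * x ∈ H := by
  have e : x ^ (orderOf x - 1) = x⁻¹ := eq_inv_of_mul_eq_one_left (by
    rw [← pow_succ, Nat.sub_add_cancel (orderOf_pos x), pow_orderOf_eq_one])
  simpa [e] using pow_norm nx (orderOf x - 1)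

/-- elements of the normaliser of `H` acting trivially modulo `N` -/
def triv (H N : Subgroup G) : Subgroup G where
  carrier := {x | x ∈ Subgroup.normalizer (H : Set G) ∧ ∀ h ∈ H, x * h * x⁻¹ * h⁻¹ ∈ N}
  one_mem' := ⟨Subgroup.one_mem _, by simp⟩
  mul_mem' := fun {x y} ⟨a, b⟩ ⟨a', b'⟩ => ⟨Subgroup.mul_mem _ a a', fun h hh => by
    simpa [mul_assoc] using N.mul_mem (b _ ((Subgroup.mem_normalizer_iff.1 a' h).1 hh)) (b' h hh)⟩
  inv_mem' := fun {x} ⟨a, b⟩ => ⟨Subgroup.inv_mem _ a, fun h hh => by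
    simpa [mul_assoc] using N.inv_mem (b _ ((Subgroup.mem_normalizer_iff.1 (Subgroup.inv_mem _ a) h).1 hh))⟩

section Foc

variable [Finite G] (S : Sylow 2 G) (N : Subgroup G)
  (hc : ∀ s ∈ (S : Subgroup G), ∀ s' ∈ (S : Subgroup G), s * s' * s⁻¹ * s'⁻¹ ∈ N)
  (k : ∀ H : Subgroup G, H ≤ S → (S : Subgroup G) ⊓ Subgroup.centralizer (H : Set G) ≤ H → ∀ x,
    Odd (orderOf x) → x ∈ Subgroup.normalizer (H : Set G) → x ∈ triv H N)
include hc k

theorem foc_norm (k' : (S : Subgroup G) ⊓ Subgroup.centralizer ((S : Subgroup G) : Set G) ≤ S) {y : G}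
    (hy : y ∈ Subgroup.normalizer ((S : Subgroup G) : Set G)) : y ∈ triv S N := by
  obtain ⟨j, l, hl, e⟩ := Nat.exists_eq_two_pow_mul_odd (orderOf_pos y).ne'
  have a := k S le_rfl k' (y ^ 2 ^ j) (hl.of_dvd_nat (orderOf_dvd_of_pow_eq_one (by
    rw [← pow_mul, ← e, pow_orderOf_eq_one]))) (Subgroup.pow_mem _ hy _)
  have b : y ^ l ∈ (S : Subgroup G) := by
    have : IsPGroup 2 (Subgroup.zpowers (y ^ l)) := by
      rintro ⟨_, i, rfl⟩
      refine ⟨j, Subtype.ext ?_⟩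
      simp only [SubgroupClass.coe_pow, OneMemClass.coe_one]
      rw [← zpow_natCast, ← zpow_mul, mul_comm, zpow_mul, zpow_natCast, ← pow_mul, mul_comm, ← e,
        pow_orderOf_eq_one, one_zpow]
    exact ((this.inf_normalizer_sylow S).le ⟨Subgroup.mem_zpowers _, Subgroup.pow_mem _ hy _⟩).2
  have b' : y ^ l ∈ triv S N := ⟨Subgroup.pow_mem _ hy _, hc _ b⟩
  have g := Nat.gcd_eq_gcd_ab (2 ^ j) l
  rw [((Nat.coprime_two_left.2 hl).pow_left j).gcd_eq_one] at g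
  have := Subgroup.mul_mem _ (Subgroup.zpow_mem _ a ((2 ^ j).gcdA l)) (Subgroup.zpow_mem _ b' ((2 ^ j).gcdB l))
  rwa [← zpow_natCast, ← zpow_natCast y l, ← zpow_mul, ← zpow_mul, ← zpow_add, ← g, Nat.cast_one, zpow_one] at this

theorem foc_key : ∀ b ∈ (S : Subgroup G), ∀ a, a * b * a⁻¹ ∈ (S : Subgroup G) → a * b * a⁻¹ * b⁻¹ ∈ N := by
  intro b hb a ha
  by_cases b1 : b = 1
  · simp [b1]
  obtain ⟨n, H, X, x, c, y, h1, h2, h3, h4⟩ := Cfsg.Agent.S3072.result S {b} (Set.singleton_subset_iff.2 hb)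
    ⟨b, rfl, b1⟩ a⁻¹ (by rw [Set.image_singleton, inv_inv]; exact Set.singleton_subset_iff.2 ha)
  have st : ∀ i ≤ n, (((List.ofFn x).take i).prod)⁻¹ * b * ((List.ofFn x).take i).prod ∈ (S : Subgroup G) ∧
      (((List.ofFn x).take i).prod)⁻¹ * b * ((List.ofFn x).take i).prod * b⁻¹ ∈ N := fun i hi => by
    induction i with
    | zero => simpa using hb
    | succ i ih =>
      obtain ⟨p1, -, p3, -, -, ⟨-, p6, -⟩, p7, p8⟩ := h4 ⟨i, hi⟩
      have m := p8 ⟨b, rfl, rfl⟩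
      have t : x ⟨i, hi⟩ ∈ triv (H ⟨i, hi⟩) N := by
        obtain ⟨z, hz, e⟩ := p7
        exact e ▸ (Subgroup.closure_le (K := (triv (H ⟨i, hi⟩) N).comap (X ⟨i, hi⟩).subtype)).2
          (fun g hg => k _ p1 p3 _ (by
            rw [Subgroup.coe_subtype, Subgroup.orderOf_coe]; exact Nat.coprime_two_right.1 hg) (p6 g.2)) hz
      have t' := Subgroup.inv_mem _ t
      rw [List.prod_take_succ _ _ (by simpa using hi), List.getElem_ofFn]
      exact ⟨p1 (by simpa [mul_assoc] using (Subgroup.mem_normalizer_iff.1 t'.1 _).1 m),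
        by simpa [mul_assoc] using N.mul_mem (t'.2 _ m) (ih (by omega)).2⟩
  obtain ⟨s1, s2⟩ := st n le_rfl
  rw [List.take_of_length_le (by simp)] at s1 s2
  have e : a = y⁻¹ * (List.ofFn x).prod⁻¹ * c⁻¹ := by rw [← inv_inv a, h3]; group
  have cb : c⁻¹ * b * c = b := by rw [mul_assoc, h1 b rfl]; group
  have := N.mul_mem ((Subgroup.inv_mem _ (foc_norm S N hc k inf_le_left h2)).2 _ s1) s2
  rw [e, show y⁻¹ * (List.ofFn x).prod⁻¹ * c⁻¹ * b * (y⁻¹ * (List.ofFn x).prod⁻¹ * c⁻¹)⁻¹ =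
    y⁻¹ * (List.ofFn x).prod⁻¹ * (c⁻¹ * b * c) * (List.ofFn x).prod * y by group, cb]
  simpa [mul_assoc] using this

end Foc

theorem foc [Finite G] (hG : commutator G = ⊤) (S : Sylow 2 G) (N : Subgroup G)
    (hc : ∀ s ∈ (S : Subgroup G), ∀ s' ∈ (S : Subgroup G), s * s' * s⁻¹ * s'⁻¹ ∈ N)
    (h : ∀ H : Subgroup G, H ≤ S → (∀ s ∈ (S : Subgroup G), (∀ h ∈ H, h * s = s * h) → s ∈ H) → ∀ x,
      Odd (orderOf x) → (∀ h ∈ H, x * h * x⁻¹ ∈ H) → ∀ h ∈ H, x * h * x⁻¹ * h⁻¹ ∈ N) : (S : Subgroup G) ≤ N := by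
  have key := foc_key S N hc fun H a b x o n =>
    And.intro n (h H a (fun s hs e => b (Subgroup.mem_inf.2 ⟨hs, Subgroup.mem_centralizer_iff.2 e⟩)) x o
      fun h => (Subgroup.mem_normalizer_iff.1 n h).1)
  intro g hg
  by_contra hn
  have nn : ((N ⊓ S).subgroupOf (S : Subgroup G)).Normal := ⟨fun k hk s => by
    rw [Subgroup.mem_subgroupOf] at hk ⊢
    refine Subgroup.mem_inf.2 ⟨?_, (s * k * s⁻¹).2⟩
    have := N.mul_mem (hc _ s.2 _ k.2) (Subgroup.mem_inf.1 hk).1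
    rwa [inv_mul_cancel_right] at this⟩
  have h1 : ∃ k : ℕ, orderOf g = 2 ^ k := by
    obtain ⟨k, e⟩ := IsPGroup.iff_orderOf.1 S.isPGroup' ⟨g, hg⟩
    exact ⟨k, by rw [← e, Subgroup.orderOf_mk]⟩
  have h2 : ∀ x ∈ (S : Subgroup G), ∀ y ∈ (S : Subgroup G), x * y * x⁻¹ * y⁻¹ ∈ N ⊓ S := fun x a y b =>
    Subgroup.mem_inf.2 ⟨hc x a y b, mul_mem (mul_mem (mul_mem a b) (inv_mem a)) (inv_mem b)⟩
  have h3 : ∀ (m : ℤ) (a : G), a * g ^ m * a⁻¹ ∈ (S : Subgroup G) → a * g ^ m * a⁻¹ * (g ^ m)⁻¹ ∈ N ⊓ S :=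
    fun m a e => Subgroup.mem_inf.2 ⟨key _ (zpow_mem hg m) a e, mul_mem e (inv_mem (zpow_mem hg m))⟩
  have h4 : Nat.Coprime 2 (S : Subgroup G).index := Nat.prime_two.coprime_iff_not_dvd.2 S.not_dvd_index
  have h5 : g ∈ commutator G := by rw [hG]; trivial
  have h6 : g ∉ N ⊓ (S : Subgroup G) := fun e => hn (Subgroup.mem_inf.1 e).1
  have h7 := Cfsg.Agent.S1241.result (p := 2) (S : Subgroup G) (N ⊓ (S : Subgroup G)) inf_le_right nn h2 h4 g hg h6 h1 h3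
  exact h7 h5

end CL.D4.B
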