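import Cfsg.Agent.CLAS.D4.B6

/-!
# Block B: automorphisms of odd order of centric subgroups
-/

set_option autoImplicit false
set_option linter.unusedSectionVars false

namespace CL.D4.B

variable {G : Type*} [Group G] {Cm Y : G → G → Prop}

theorem pow_mod_conj {x e : G} {m n : ℕ} (h : x ^ m * e = e * x ^ m) (hn : n ≡ 1 [MOD m]) (h0 : n ≠ 0) :
    x ^ n * e * (x ^ n)⁻¹ = x * e * x⁻¹ := by
  obtain ⟨i, hi⟩ := (Nat.modEq_iff_dvd' (Nat.one_le_iff_ne_zero.2 h0)).1 hn.symm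
  rw [show n = 1 + m * i by omega, pow_add, pow_one, pow_mul, mul_inv_rev, mul_assoc x,
    (Commute.pow_left h i).eq]
  group

theorem oddify' [Finite G] (g : G) {m : ℕ} (hm : Odd m) : ∃ n, Odd (orderOf (g ^ n)) ∧
    ∀ x e : G, x ^ m * e = e * x ^ m → x ^ n * e * (x ^ n)⁻¹ = x * e * x⁻¹ := by
  obtain ⟨n, a, b⟩ := oddify g (hm.mul (by decide : Odd 3))
  exact ⟨n, a, fun x e h => pow_mod_conj h (b.of_mul_right 3) fun e => by
    subst e
    have := (Nat.modEq_iff_dvd' (by omega)).1 b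
    have := Nat.le_of_dvd one_pos this
    have := hm.pos
    omega⟩

namespace Cx

variable (c : Cx Cm Y)
include c

theorem fr_raw {t w r u : G} (d : Dp Cm t w) (r2 : r * r = 1) (u2 : u * u = 1) (ru : r * u = u * r) (tr : Cm t r)
    (rw' : r * w = w * r) (wr : ¬ Cm w r) (wu : Cm w u) (ut : u * t = t * u) (tu : ¬ Cm t u) :
    ∃ u', Fr Cm w r t u' ∧ (u' = u ∨ u' = w * u) := by
  by_cases e : Cm r u
  · exact ⟨_, ⟨d.w2, r2, d.t2, u2, rw'.symm, ut.symm, wr, tu, c.symm d.cm, wu, c.symm tr, e⟩, .inl rfl⟩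
  · exact ⟨_, ⟨d.w2, r2, d.t2, sq_mul d.w2 u2 (c.comm wu), rw'.symm, comm_mul (c.comm d.cm) ut.symm, wr,
      fun e => tu ((c.mul_iff d.cm).1 e), c.symm d.cm, c.mul (c.refl w) wu, c.symm tr,
      c.two r2 rw'.symm ru.symm (fun e => wr (c.symm e)) e⟩, .inr rfl⟩

theorem in16_comm {w r t u a b : G} (f : Fr Cm w r t u) (ha : In16 w r t u a) (hb : In16 w r t u b) :
    a * b = b * a ∧ a * a = 1 := by
  obtain ⟨v, rfl⟩ := in16_iff.1 ha
  obtain ⟨v', rfl⟩ := in16_iff.1 hb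
  exact ⟨c.ee_comm f v v', c.ee_sq f v⟩

theorem in4_cmF {t w a b : G} (d : Dp Cm t w) (ha : In4 t w a) (hb : In4 t w b) : Cm a b := by
  have k : ∀ g, Cm g t → Cm g w → Cm g b := fun g x y => by
    rcases hb with rfl | rfl | rfl | rfl
    exacts [c.one g, x, y, c.mul x y]
  have a1 := k t (c.refl t) d.cm
  have a2 := k w (c.symm d.cm) (c.refl w)
  rcases ha with rfl | rfl | rfl | rfl
  exacts [c.symm (c.one b), a1, a2, c.lmul a1 a2]

theorem other {t w f : G} (d : Dp Cm t w) (hf : In4 t w f) (f1 : f ≠ 1) :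
    ∃ f', Dp Cm f f' ∧ In4 t w f' ∧ ∀ g, In4 f f' g → In4 t w g := by
  have tw := c.comm d.cm
  rcases hf with rfl | rfl | rfl | rfl
  · exact (f1 rfl).elim
  · exact ⟨w, d, .inr (.inr (.inl rfl)), fun _ h => h⟩
  · exact ⟨t, c.dp_symm d, .inr (.inl rfl), fun _ h => in4_symm h tw.symm⟩
  · exact ⟨t, c.dp_symm (c.dp_mul d), .inr (.inl rfl), fun _ h =>
      in4_mul_r (in4_symm h (c.comm (c.dp_mul d).cm).symm) d.t2⟩

theorem in4_gen {w r t u α β γ : G} (f : Fr Cm w r t u) (ha : In4 w r α) (hb : In4 w r β) (hc : In4 w r γ)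
    (q : ¬ Cm α β) (a : Cm γ α) (b : Cm γ β) : γ = 1 := by
  have k : ∀ {g}, In4 w r g → ∃ x y, g = ee w r t u (x, y, false, false) := fun h =>
    (in4_iff.1 h).imp fun _ h => h.imp fun _ h => by simp [h, ee, pw]
  obtain ⟨a1, a2, rfl⟩ := k ha
  obtain ⟨b1, b2, rfl⟩ := k hb
  obtain ⟨c1, c2, rfl⟩ := k hc
  rw [c.ee_cm f] at q a b
  have : (c1, c2, false, false) = V.z := by clear ha hb hc k; revert a1 a2 b1 b2 c1 c2; decide
  rw [this, ee_z]

/-- two transvections -/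
theorem tv [Finite G] {s f v : G} (s2 : s * s = 1) (s1 : s ≠ 1) (f2 : f * f = 1) (v2 : v * v = 1) (fv : f * v = v * f)
    (q : ¬ Cm f v) (sf : Cm s f) (sv : Cm s v) (hf : HasY Y f) (hv : HasY Y v) : Gd Cm s f v := by
  have k : ∀ {f e y}, f * f = 1 → Y f y → y * y = f → e * f = f * e → ¬ Cm f e → y * e * y⁻¹ = f * e :=
    fun {f e y} a b d g h => by
      rw [show y * e * y⁻¹ = y * (e * y * e⁻¹)⁻¹ * e by group, c.Y_anti a b g h, inv_inv, d]
  obtain ⟨y, a, b⟩ := hf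
  obtain ⟨z, a', b'⟩ := hv
  have e1 := k f2 a b fv.symm q
  have e2 := k v2 a' b' fv fun e => q (c.symm e)
  have e3 := conj_of_comm (c.Y_comm a (c.refl f)).symm
  have e4 := conj_of_comm (c.Y_comm a' (c.refl v)).symm
  have g1 : y * z * f * (y * z)⁻¹ = v := by
    rw [show y * z * f * (y * z)⁻¹ = y * (z * f * z⁻¹) * y⁻¹ by group, e2, conj_mul', e1, e3, fv, mul_assoc, f2, mul_one]
  have g2 : y * z * v * (y * z)⁻¹ = f * v := by
    rw [show y * z * v * (y * z)⁻¹ = y * (z * v * z⁻¹) * y⁻¹ by group, e4, e1]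
  have g3 : y * z * s = s * (y * z) := (c.comm (c.mul (c.Y_cm a sf) (c.Y_cm a' sv))).symm
  generalize y * z = g at g1 g2 g3
  have g4 : g * (f * v) * g⁻¹ = f := by rw [conj_mul', g1, g2, lcomm fv.symm, v2, mul_one]
  have j : ∀ e, g ^ 3 * e * (g ^ 3)⁻¹ = g * (g * (g * e * g⁻¹) * g⁻¹) * g⁻¹ := fun e => by
    simp [pow_succ, mul_assoc]
  obtain ⟨n, o, h⟩ := oddify' g (by decide : Odd 3)
  exact ⟨g ^ n, s2, s1, f2, v2, fv, q, sf, sv, o, (Commute.pow_left g3 n).eq,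
    by rw [h g f (comm_of_conj (by rw [j, g1, g2, g4])), g1], by rw [h g v (comm_of_conj (by rw [j, g2, g4, g1])), g2]⟩

section Ess

variable [Finite G] {S N H : Subgroup G} {t w r : G} (h : St Cm S t w r) (cov : Cov Cm S N t w) (HS : H ≤ S)
include h cov HS

theorem fix {f x : G} (hf : In4 t w f) (f1 : f ≠ 1) (o : Odd (orderOf x)) (xf : x * f = f * x)
    (nx : ∀ g ∈ H, x * g * x⁻¹ ∈ H) : ∀ g ∈ H, x * g * x⁻¹ * g⁻¹ ∈ N := by
  obtain ⟨f', d, m, k⟩ := c.other (c.gd_dp h.gd) hf f1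
  have cf : ∀ {e}, In4 t w e → ∀ s ∈ S, e * s = s * e := fun he s hs =>
    in4_comm he (h.ct s hs).symm (h.cw s hs).symm
  rcases c.act H f x (h.pg.to_le HS) d.t2 f1 (fun g hg => (cf hf g (HS hg)).symm) o xf nx with e | ⟨a, ha, b, hb, g, e⟩
  · exact fun g hg => by simp [e g hg]
  have j : a ∈ N ∧ b ∈ N := by
    by_cases e1 : Cm f' a
    · exact cov f a b hf (k _ (c.iso d g.a2 g.ta e1)) (HS hb) ⟨x, g⟩
    by_cases e2 : Cm f' b
    · exact (cov f b a hf (k _ (c.iso d g.b2 g.tb e2)) (HS ha) (c.gd_swap ⟨x, g⟩)).symm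
    have := cov f (a * b) a hf (k _ (c.iso d g.ab2 (c.mul g.ta g.tb)
      (c.two d.w2 (cf m a (HS ha)).symm (cf m b (HS hb)).symm e1 e2))) (HS ha) (c.gd_swap (c.gd_mul ⟨x, g⟩))
    exact ⟨this.2, by simpa using N.mul_mem (N.inv_mem this.2) this.1⟩
  intro y hy
  rcases e y hy with e | e | e | e <;> rw [e]
  exacts [N.one_mem, j.1, j.2, N.mul_mem j.1 j.2]

/-- `H` is a frame group containing a good subgroup over `⟨t, w⟩` -/
theorem ess16 {s p q u x : G} (hp : In4 t w p) (pN : p ∈ N) (qN : q ∈ N) (g : Gd Cm s p q) (f : Fr Cm p q s u)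
    (hH : ∀ e, e ∈ H ↔ In16 p q s u e) (o : Odd (orderOf x)) (nx : ∀ g ∈ H, x * g * x⁻¹ ∈ H) :
    ∀ g ∈ H, x * g * x⁻¹ * g⁻¹ ∈ N := by
  have f' := c.fr_symm f
  have i1 : ∀ {a b : G}, In4 a b a := .inr (.inl rfl)
  have i2 : ∀ {a b : G}, In4 a b b := .inr (.inr (.inl rfl))
  have ml : ∀ {e}, In4 p q e → e ∈ H := fun he => (hH _).2 (c.in16_l he)
  have mr : ∀ {e}, In4 s u e → e ∈ H := fun he => (hH _).2 (c.in16_r he)
  have pq : ∀ y, (∀ g ∈ H, y * g * y⁻¹ ∈ H) → In4 p q (y * p * y⁻¹) ∧ In4 p q (y * q * y⁻¹) ∨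
      In4 s u (y * p * y⁻¹) ∧ In4 s u (y * q * y⁻¹) := fun y ny => by
    have g' := c.gd_conj g y
    have a := (hH _).1 (ny _ (ml i1))
    have b := (hH _).1 (ny _ (ml i2))
    have d := (hH _).1 (ny _ (mr i1))
    have n : ¬ Cm (y * p * y⁻¹) (y * q * y⁻¹) := fun e => f.q ((c.conj_iff y).1 e)
    rcases c.ov f g g' d a b with e | e <;> rcases c.ov f g (c.gd_swap g') d b a with e' | e'
    · exact .inl ⟨e, e'⟩
    · exact (n (c.in4_cm f e e')).elim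
    · exact (n (c.symm (c.in4_cm f e' e))).elim
    · exact .inr ⟨e, e'⟩
  have ext : ∀ {y a b e}, a * a = 1 → b * b = 1 → a * b = b * a → In4 a b (y * p * y⁻¹) → In4 a b (y * q * y⁻¹) →
      In4 p q e → In4 a b (y * e * y⁻¹) := fun {y a b e} a2 b2 ab h1 h2 he => by
    rcases he with rfl | rfl | rfl | rfl
    exacts [.inl (by simp), h1, h2, by rw [conj_mul']; exact in4_mul h1 h2 a2 b2 ab]
  have p1 : ∀ y, y * p * y⁻¹ ≠ 1 := fun y e => (c.gd_dp g).w1 (by simpa using e)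
  have nq : ∀ y, ¬ Cm (y * p * y⁻¹) (y * q * y⁻¹) := fun y e => f.q ((c.conj_iff y).1 e)
  obtain ⟨a1, a2⟩ : In4 p q (x * p * x⁻¹) ∧ In4 p q (x * q * x⁻¹) := (pq x nx).resolve_right fun ⟨b1, b2⟩ => by
    have e2 : ∀ e, x * x * e * (x * x)⁻¹ = x * (x * e * x⁻¹) * x⁻¹ := fun e => by group
    rcases pq (x * x) (fun g hg => by rw [e2]; exact nx _ (nx g hg)) with ⟨d1, d2⟩ | ⟨d1, d2⟩
    · obtain ⟨n, hn⟩ := odd_pow o
      have : ∀ n e, In4 p q e → In4 p q ((x * x) ^ n * e * ((x * x) ^ n)⁻¹) := fun n => by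
        induction n with
        | zero => simp
        | succ n ih =>
          exact fun e he => by simpa [pow_succ', mul_assoc] using ext f.w2 f.r2 f.wr d1 d2 (ih e he)
      have := this n p i1
      rw [hn] at this
      exact p1 x (c.in4_eq_one f' b1 (c.in4_cm f this i1) (c.in4_cm f this i2))
    · refine p1 x (c.in4_gen f' d1 d2 b1 (nq _) ?_ ?_) <;> rw [e2, c.conj_iff]
      exacts [c.in4_cm f i1 b1, c.in4_cm f i1 b2]
  have r' : ∀ e, In4 s u e → In4 s u (x * e * x⁻¹) := fun e he => by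
    obtain ⟨α, β, ha, hb, e'⟩ := (hH _).1 (nx _ (mr he))
    have k : ∀ {z}, In4 p q z → In4 p q (x * z * x⁻¹) → Cm α (x * z * x⁻¹) := fun hz hz' =>
      (c.lmul_iff' (c.in4_cm f' hb hz')).1 (e' ▸ c.conj x (c.in4_cm f' he hz))
    rwa [e', c.in4_gen f a1 a2 ha (nq x) (k i1 a1) (k i2 a2), one_mul]
  obtain ⟨z, hz⟩ := g
  obtain ⟨z, hz, zu⟩ := c.pure f hz
  have zr : ∀ {e}, In4 s u e → z * e = e * z := fun he => (in4_comm he hz.xt.symm zu.symm).symm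
  have nz : ∀ g ∈ H, z * g * z⁻¹ ∈ H := fun g hg => by
    obtain ⟨α, β, ha, hb, rfl⟩ := (hH _).1 hg
    rw [conj_mul', conj_of_comm (zr hb)]
    exact H.mul_mem (ml (ext f.w2 f.r2 f.wr (hz.xa ▸ i2) (hz.xb ▸ .inr (.inr (.inr rfl))) ha)) (mr hb)
  obtain ⟨k, hk⟩ : ∃ k : ℕ, z ^ k * (x * p * x⁻¹) * (z ^ k)⁻¹ = p := by
    rcases a1 with e | e | e | e <;> rw [e]
    · exact (p1 x e).elim
    · exact ⟨0, by simp⟩
    · exact ⟨2, by rw [show z ^ 2 * q * (z ^ 2)⁻¹ = z * (z * q * z⁻¹) * z⁻¹ by simp [pow_succ, mul_assoc], hz.xb, hz.xab]⟩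
    · exact ⟨1, by simpa using hz.xab⟩
  have y1 : z ^ k * x * p = p * (z ^ k * x) := comm_of_conj (Eq.trans (by group) hk)
  have y2 : ∀ g ∈ H, z ^ k * x * g * (z ^ k * x)⁻¹ ∈ H := fun g hg => by
    simpa [mul_assoc] using pow_norm nz k _ (nx g hg)
  have y3 : ∀ e, In4 s u e → z ^ k * x * e * (z ^ k * x)⁻¹ = x * e * x⁻¹ := fun e he => by
    rw [← conj_of_comm (Commute.pow_left (zr (r' e he)) k).eq]; group
  generalize z ^ k * x = y at y1 y2 y3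
  have y4 : ∀ (n : ℕ) e, In4 s u e → In4 s u (x ^ n * e * (x ^ n)⁻¹) ∧ y ^ n * e * (y ^ n)⁻¹ = x ^ n * e * (x ^ n)⁻¹ :=
    fun n e he => by
      induction n with
      | zero => simpa using he
      | succ n ih =>
        have j : ∀ x : G, x ^ (n + 1) * e * (x ^ (n + 1))⁻¹ = x * (x ^ n * e * (x ^ n)⁻¹) * x⁻¹ := fun x => by group
        rw [j, j, ih.2]
        exact ⟨r' _ ih.1, y3 _ ih.1⟩
  obtain ⟨n, o', hn⟩ := oddify' y o
  have fx := c.fix h cov HS hp (c.gd_dp ⟨z, hz⟩).w1 o' (Commute.pow_left y1 n).eq (pow_norm y2 n)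
  intro e he
  obtain ⟨α, β, ha, hb, rfl⟩ := (hH _).1 he
  have := fx β (mr hb)
  rw [(y4 n β hb).2, hn x β (by simp)] at this
  simpa [mul_assoc] using N.mul_mem (N.mul_mem (in4_mem (ext f.w2 f.r2 f.wr a1 a2 ha) pN qN) this)
    (N.inv_mem (in4_mem ha pN qN))

end Ess

end Cx

end CL.D4.B
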