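import Cfsg.Agent.CLAS.D4.B7

/-!
# Block B: automorphisms of odd order of subgroups containing `⟨t, w⟩`
-/

set_option autoImplicit false
set_option linter.unusedSectionVars false

namespace CL.D4.B

variable {G : Type*} [Group G] {Cm Y : G → G → Prop}

theorem cent_conj [Finite G] {H : Subgroup G} {x f : G} (nx : ∀ g ∈ H, x * g * x⁻¹ ∈ H) (hf : ∀ g ∈ H, g * f = f * g) :
    ∀ g ∈ H, g * (x * f * x⁻¹) = x * f * x⁻¹ * g := fun g hg => by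
  have := conj_comm (hf _ (inv_norm nx g hg)) x
  simpa [mul_assoc] using this

theorem prop3 {a a' b b' d d' : Prop} (x : a → ¬ a') (y : b → ¬ b') (z : d → ¬ d') (e : d ↔ (a ↔ b))
    (e' : d' ↔ (a' ↔ b')) : a ∧ ¬ a' ∨ b ∧ ¬ b' ∨ d ∧ ¬ d' := by
  by_cases a <;> by_cases a' <;> by_cases b <;> by_cases b' <;> simp_all

namespace Cx

variable (c : Cx Cm Y)
include c

theorem types {t w a b : G} (d : Dp Cm t w) (a2 : a * a = 1) (b2 : b * b = 1) (ab : a * b = b * a) (at' : a * t = t * a)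
    (aw : a * w = w * a) (bt : b * t = t * b) (bw : b * w = w * b) (na : ¬ In4 t w a) (nb : ¬ In4 t w b)
    (nab : ¬ In4 t w (a * b)) : ∃ r u, In4 a b r ∧ In4 a b u ∧ Cm t r ∧ ¬ Cm w r ∧ Cm w u ∧ ¬ Cm t u := by
  have x1 : Cm t a → ¬ Cm w a := fun e e' => na (c.iso d a2 e e')
  have x2 : Cm t b → ¬ Cm w b := fun e e' => nb (c.iso d b2 e e')
  have x3 : Cm t (a * b) → ¬ Cm w (a * b) := fun e e' => nab (c.iso d (sq_mul a2 b2 ab) e e')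
  have y1 := c.mul_cm d.t2 at' bt
  have y2 := c.mul_cm d.w2 aw bw
  have i1 : In4 a b a := .inr (.inl rfl)
  have i2 : In4 a b b := .inr (.inr (.inl rfl))
  have i3 : In4 a b (a * b) := .inr (.inr (.inr rfl))
  obtain ⟨r, hr, e⟩ : ∃ r, In4 a b r ∧ Cm t r ∧ ¬ Cm w r := by
    rcases prop3 x1 x2 x3 y1 y2 with e | e | e
    exacts [⟨_, i1, e⟩, ⟨_, i2, e⟩, ⟨_, i3, e⟩]
  obtain ⟨u, hu, e'⟩ : ∃ u, In4 a b u ∧ Cm w u ∧ ¬ Cm t u := by
    rcases prop3 (imp_not_comm.1 x1) (imp_not_comm.1 x2) (imp_not_comm.1 x3) y2 y1 with e | e | e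
    exacts [⟨_, i1, e⟩, ⟨_, i2, e⟩, ⟨_, i3, e⟩]
  exact ⟨r, u, hr, hu, e.1, e.2, e'⟩

theorem ex_cm {t w g : G} (d : Dp Cm t w) (gt : g * t = t * g) (gw : g * w = w * g) :
    ∃ s, In4 t w s ∧ s ≠ 1 ∧ Cm s g := by
  by_cases e : Cm t g
  · exact ⟨t, .inr (.inl rfl), d.t1, e⟩
  by_cases e' : Cm w g
  · exact ⟨w, .inr (.inr (.inl rfl)), d.w1, e'⟩
  exact ⟨t * w, .inr (.inr (.inr rfl)), (c.dp_mul d).w1, c.two' d.t2 d.w2 gt gw e e'⟩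

/-- without square roots, a good `r` lies in every frame over `⟨t, w⟩` -/
theorem r_mem {S : Subgroup G} {t w r r₀ u : G} (h : St Cm S t w r) (rS : r₀ ∈ S) (uS : u ∈ S) (f : Fr Cm w r₀ t u)
    (hw : ¬ HasY Y w) : In4 t w (r * r₀) := by
  have d := c.gd_dp h.gd
  obtain ⟨x, g⟩ := h.gd
  have tw := c.comm d.cm
  have aS := S.mul_mem h.rS rS
  have ta : Cm t (r * r₀) := c.mul g.tb (c.symm f.rt)
  have wa : Cm w (r * r₀) := c.two d.w2 g.ab.symm f.wr.symm g.q f.q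
  obtain ⟨-, p1, p2, -, p3, -⟩ := c.phi d f.r2 f.u2 (c.symm f.rt) f.wr.symm f.q f.wu f.tu.symm f.q' ta wa
  have e0 : r₀ * (r * r₀) * r₀⁻¹ = (r * r₀)⁻¹ := by rw [mul_inv_rev, inv_eq g.b2, inv_eq f.r2, mul_assoc, mul_assoc, f.r2, mul_one]
  have e1 : r₀ * r * r₀⁻¹ = (r * r₀ * (r * r₀))⁻¹ * r := by
    simp [mul_assoc, inv_eq g.b2, inv_eq f.r2, g.b2]
  rw [e0, inv_inv] at p3
  have st : ∀ {f'}, r * r₀ * (r * r₀) = f' → In4 t w f' → f' = 1 ∨ f' = w := fun {f'} e hf =>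
    c.star ⟨x, g⟩ (h.ct _ rS) (h.cw _ rS) (by rw [e1, e, inv_eq (in4_sq hf d.t2 d.w2 tw)]) hf
  generalize r * r₀ = a at *
  obtain ⟨n, hn⟩ := pw2 h.pg (S.mul_mem aS (S.mul_mem (S.mul_mem uS aS) (S.inv_mem uS)))
  obtain ⟨n', hn'⟩ := pw2 h.pg (S.mul_mem aS (S.mul_mem (S.mul_mem (S.mul_mem rS uS) aS) (S.inv_mem (S.mul_mem rS uS))))
  refine c.iso d ?_ ta wa
  rcases c.Y_small d.w2 d.w1 hw p1 hn with q1 | q1 <;>
    rcases c.Y_small (c.dp_mul d).w2 (c.dp_mul d).w1 (c.noY ⟨x, g⟩) p2 hn' with q2 | q2 <;> rw [q1, q2] at p3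
  · simpa using p3
  · rcases st p3 (.inr (.inr (.inr (one_mul _)))) with e | e
    · exact ((c.dp_mul d).w1 (by simpa using e)).elim
    · exact (d.t1 (by simpa using e)).elim
  · rw [mul_one] at p3
    have au : a * u = u * a := (comm_of_conj (mul_left_cancel (q1.trans p3.symm))).symm
    rcases c.ga (c.dp_symm d) f.wu f.tu.symm f.q' wa ta au with e | e
    · exact (hw ⟨a, e, p3⟩).elim
    · exact (hw ⟨_, e, by rw [mul_assoc, lcomm (c.comm ta), d.t2, mul_one, p3]⟩).elim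
  · rw [lcomm tw.symm, d.w2, mul_one] at p3
    rcases st p3 (.inr (.inl rfl)) with e | e
    exacts [(d.t1 e).elim, (d.ne e).elim]

theorem ess [Finite G] {S N H : Subgroup G} {t w r : G} (h : St Cm S t w r) (cov : Cov Cm S N t w) (HS : H ≤ S)
    (nf : ∀ g f, In4 t w f → In4 t w (g * f * g⁻¹) → g * f * g⁻¹ = f) (tH : t ∈ H) (wH : w ∈ H) {x : G}
    (o : Odd (orderOf x)) (nx : ∀ g ∈ H, x * g * x⁻¹ ∈ H) : ∀ g ∈ H, x * g * x⁻¹ * g⁻¹ ∈ N := by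
  by_cases hf : ∃ f, In4 t w f ∧ f ≠ 1 ∧ x * f = f * x
  · obtain ⟨f, a, b, e⟩ := hf
    exact c.fix h cov HS a b o e nx
  have d := c.gd_dp h.gd
  have tw := c.comm d.cm
  have nF : ∀ {f}, In4 t w f → f ≠ 1 → ¬ In4 t w (x * f * x⁻¹) := fun a b e => hf ⟨_, a, b, comm_of_conj (nf x _ a e)⟩
  have ct : ∀ g ∈ H, g * t = t * g := fun g hg => h.ct g (HS hg)
  have cw : ∀ g ∈ H, g * w = w * g := fun g hg => h.cw g (HS hg)
  obtain ⟨r₀, u₀, a1, a2, a3, a4, a5, a6⟩ := c.types d (conj_sq d.t2 x) (conj_sq d.w2 x) (conj_comm tw x)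
    (ct _ (nx _ tH)) (cw _ (nx _ tH)) (ct _ (nx _ wH)) (cw _ (nx _ wH)) (nF (.inr (.inl rfl)) d.t1)
    (nF (.inr (.inr (.inl rfl))) d.w1) (by rw [← conj_mul']; exact nF (.inr (.inr (.inr rfl))) (c.dp_mul d).w1)
  have z : ∀ {e}, In4 (x * t * x⁻¹) (x * w * x⁻¹) e → e ∈ H ∧ e * e = 1 ∧ ∀ g ∈ H, g * e = e * g := fun he =>
    ⟨in4_mem he (nx _ tH) (nx _ wH), in4_sq he (conj_sq d.t2 x) (conj_sq d.w2 x) (conj_comm tw x), fun g hg =>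
      (in4_comm he (cent_conj nx ct g hg).symm (cent_conj nx cw g hg).symm).symm⟩
  obtain ⟨rH, r2, cr⟩ := z a1
  obtain ⟨uH, u2, cu⟩ := z a2
  obtain ⟨u, f, hu⟩ := c.fr_raw d r2 u2 (cu _ rH) a3 (cw _ rH) a4 a5 (ct _ uH) a6
  have uH' : u ∈ H := by rcases hu with rfl | rfl; exacts [uH, H.mul_mem wH uH]
  have ab : ∀ a ∈ H, ∀ b ∈ H, a * b = b * a ∧ a * a = 1 := by
    have : ∀ a ∈ H, In16 w r₀ t u a := fun a ha => c.ce16 f (cw a ha) (cr a ha) (ct a ha) (by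
      rcases hu with rfl | rfl; exacts [cu a ha, comm_mul (cw a ha) (cu a ha)])
    exact fun a ha b hb => c.in16_comm f (this a ha) (this b hb)
  obtain ⟨s, p, q, hs, hp, hq, g⟩ : ∃ s p q, In4 t w s ∧ In4 t w p ∧ q ∈ H ∧ Gd Cm s p q := by
    by_cases hy : ∃ e, In4 t w e ∧ e ≠ 1 ∧ HasY Y e
    · obtain ⟨e, he, e1, ye⟩ := hy
      have eH := in4_mem he tH wH
      have k : ∀ v ∈ H, HasY Y v → ¬ Cm e v → ∃ s p q, In4 t w s ∧ In4 t w p ∧ q ∈ H ∧ Gd Cm s p q := fun v hv yv n => by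
        obtain ⟨s, hs, s1, sv⟩ := c.ex_cm d (ct v hv) (cw v hv)
        exact ⟨s, e, v, hs, he, hv, c.tv (in4_sq hs d.t2 d.w2 tw) s1 (ab e eH e eH).2 (ab v hv v hv).2 (ab e eH v hv).1 n
          (c.in4_cmF d hs he) sv ye yv⟩
      by_cases m : Cm e (x * e * x⁻¹)
      swap
      · exact k _ (nx e eH) (c.hasY_conj ye x) m
      by_cases m' : Cm e (x * (x * e * x⁻¹) * x⁻¹)
      swap
      · exact k _ (nx _ (nx e eH)) (c.hasY_conj (c.hasY_conj ye x) x) m'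
      have d' : Dp Cm e (x * e * x⁻¹) := ⟨(ab e eH e eH).2, conj_sq (ab e eH e eH).2 x, e1, fun j => e1 (by simpa using j),
        fun j => nF he e1 (j ▸ he), m⟩
      rcases c.iso d' (conj_sq d'.w2 x) m' (c.conj x m) with j | j | j | j
      · exact (e1 (by simpa using j)).elim
      · exact (hf ⟨e, he, e1, comm_of_sq o (comm_of_conj (Eq.trans (by group) j))⟩).elim
      · exact (d'.ne (conj_inj j).symm).elim
      · exact (c.noJ' d' ye (c.hasY_conj ye x) (j ▸ c.hasY_conj (c.hasY_conj ye x) x)).elim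
    · have := in4_mem (c.r_mem h (HS rH) (HS uH') f fun j => hy ⟨w, .inr (.inr (.inl rfl)), d.w1, j⟩) tH wH
      exact ⟨t, w, r, .inr (.inl rfl), .inr (.inr (.inl rfl)), (H.mul_mem_cancel_right rH).1 this, h.gd⟩
  have sH := in4_mem hs tH wH
  have pH := in4_mem hp tH wH
  obtain ⟨v, vH, pv, sv⟩ : ∃ v ∈ H, Cm p v ∧ ¬ Cm s v := by
    have b1 := c.cm3 d.t2 d.w2 (ct _ rH) (cw _ rH)
    have b2 := c.cm3 d.t2 d.w2 (ct _ uH) (cw _ uH)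
    have b3 := c.cm3 d.t2 d.w2 (ct _ (H.mul_mem rH uH)) (cw _ (H.mul_mem rH uH))
    have b4 := c.mul_cm d.t2 (ct _ rH) (ct _ uH)
    have b5 := c.mul_cm d.w2 (cw _ rH) (cw _ uH)
    simp only [a3, a4, a5, a6, iff_false, iff_true, not_true] at b1 b2 b4 b5
    simp only [b4, b5, iff_true] at b3
    rcases c.cov_cases hs hp g with ⟨rfl, rfl⟩ | ⟨rfl, rfl⟩ | ⟨rfl, rfl⟩ | ⟨rfl, rfl⟩ | ⟨rfl, rfl⟩ | ⟨rfl, rfl⟩
    exacts [⟨_, uH, a5, a6⟩, ⟨_, H.mul_mem rH uH, b3, b4⟩, ⟨_, rH, a3, a4⟩, ⟨_, H.mul_mem rH uH, b3, b5⟩,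
      ⟨_, rH, a3, b1⟩, ⟨_, uH, a5, b2⟩]
  obtain ⟨v', f', hv⟩ := c.fr_ex g (ab v vH v vH).2 (ab v vH s sH).1 (ab v vH q hq).1 pv sv
  have vH' : v' ∈ H := by rcases hv with rfl | rfl; exacts [vH, H.mul_mem pH vH]
  obtain ⟨pN, qN⟩ := cov s p q hs hp (HS hq) g
  refine c.ess16 h cov HS hp pN qN g f' (fun e => ⟨fun he => c.ce16 f' (ab e he p pH).1 (ab e he q hq).1
    (ab e he s sH).1 (ab e he v' vH').1, ?_⟩) o nx
  rintro ⟨a, b, ha, hb, rfl⟩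
  exact H.mul_mem (in4_mem ha pH hq) (in4_mem hb sH vH')

end Cx

end CL.D4.B
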