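import Cfsg.Agent.CLAS.D4.B8

/-!
# Block B: central involutions of `T` when `T` is not a Sylow subgroup
-/

set_option autoImplicit false

namespace CL.D4.B

variable {G : Type*} [Group G] {Cm Y : G → G → Prop}

/-- Write `g' = s g s⁻¹`; `Z(T)` is `s`-invariant (`cent_conj`) and `e'' = e` for `e ∈ Z(T)`.  Suppose `v ∉ F = In4 t w`.
(1) WLOG `¬ Cm t v`: if `Cm t v` then `¬ Cm w v` (`iso`), `r v` is an involution with `Cm t`, `Cm w` (`two`), so in `F` and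
`r ∈ Z(T)`; then `t', w', r' ∈ Z(T)`, and if all three are `Cm t`, `iso` for `Dp t' w'` with `gd_tw` gives `t = t'`,
against `mx`.
(2) A frame `Fr w r t u` with `u ∈ Z(T)`: if `Cm w v` use `fr_ex` with `v`.  Otherwise `Cm (t w) v` (`two'`), and
`noY`, `cA'` (for `Dp (t w) t`, `r := v`) put every `a ∈ T` with `Cm t a`, `Cm w a` into `F`; `dec` (with `u := v r`)
and `fr_ex` show that `T` is abelian.
(3) `pure` gives `Gd e w r` for all `e ≠ 1` in `In4 t u`, so `mx` applies to them.  If `e ≠ 1` and `e'` are both in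
`In4 t u`, then `s` fixes `e e'`, and `e` if `e e' = 1`: contradiction.
(4) `r ∉ Z(T)`: by `ce16`, `t' = p₁ q₁`, `u' = p₂ q₂` with `pᵢ ∈ In4 w r` central, so `pᵢ ∈ {1, w}`; one of `t', u', t' u'`
is in `In4 t u`.
(5) `r ∈ Z(T)`: `T = In16 w r t u` (`ce16`).  By `ov` (see `pq` in `ess16`) `w', r'` are both in `In4 w r` (then
`t' ∈ In4 t u` by `in4_gen`, see `r'` in `ess16`) or both in `In4 t u` (then `t', u' ∈ In4 w r`).  In the last case
`s s = p q` is fixed by `s`, so `q = p'` (`in4_eq_one`), `j = s p` is an involution with `j t j⁻¹ = t'`; take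
`r₀ ∈ In4 w r` with `¬ Cm t' r₀`; `c.swap` for `Dp t t'` gives `¬ Cm r₀ r₀'`, against `in4_cm`. -/
theorem Cx.stepA [Finite G] (c : Cx Cm Y) {T : Subgroup G} {t w r s : G} (h : St Cm T t w r)
    (mx : ∀ e ∈ T, Gd Cm e w r → (∀ g ∈ T, g * e = e * g) → s * e ≠ e * s)
    (ns : ∀ g ∈ T, s * g * s⁻¹ ∈ T) (s2 : s * s ∈ T) {v : G} (vT : v ∈ T) (v2 : v * v = 1)
    (cv : ∀ g ∈ T, g * v = v * g) : In4 t w v := by
  by_contra nv
  have d := c.gd_dp h.gd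
  have d' := c.dp_mul d
  have tw := c.comm d.cm
  obtain ⟨x₀, g₀⟩ := id h.gd
  have i1 : ∀ {a b : G}, In4 a b a := .inr (.inl rfl)
  have i2 : ∀ {a b : G}, In4 a b b := .inr (.inr (.inl rfl))
  have i3 : ∀ {a b : G}, In4 a b (a * b) := .inr (.inr (.inr rfl))
  have mt : s * t * s⁻¹ ≠ t := fun e => mx t h.tS h.gd h.ct (comm_of_conj e)
  have cm : ∀ {a b : G}, (∀ g ∈ T, g * a = a * g) → (∀ g ∈ T, g * b = b * g) → ∀ g ∈ T, g * (a * b) = a * b * g :=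
    fun x y g hg => comm_mul (x g hg) (y g hg)
  have c4 : ∀ {a b e : G}, In4 a b e → (∀ g ∈ T, g * a = a * g) → (∀ g ∈ T, g * b = b * g) →
      ∀ g ∈ T, g * e = e * g := fun he x y g hg => (in4_comm he (x g hg).symm (y g hg).symm).symm
  have cd : ∀ {a b : G}, b * b = 1 → (∀ g ∈ T, g * (a * b) = a * b * g) → (∀ g ∈ T, g * b = b * g) →
      ∀ g ∈ T, g * a = a * g := fun {a b} _ x y g hg => comm_left (x g hg) (y g hg)
  -- (1)
  obtain ⟨v, vT, v2, cv, tv⟩ : ∃ v ∈ T, v * v = 1 ∧ (∀ g ∈ T, g * v = v * g) ∧ ¬ Cm t v := by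
    by_cases tv : Cm t v
    swap
    · exact ⟨v, vT, v2, cv, tv⟩
    have wv : ¬ Cm w v := fun e => nv (c.iso d v2 tv e)
    have e1 : In4 t w (r * v) := c.iso d (sq_mul g₀.b2 v2 (cv r h.rS)) (c.mul g₀.tb tv)
      (c.two d.w2 g₀.ab.symm (cv w h.wS).symm g₀.q wv)
    have cr : ∀ g ∈ T, g * r = r * g := cd v2 (c4 e1 h.ct h.cw) cv
    by_cases a1 : Cm t (s * t * s⁻¹)
    swap
    · exact ⟨_, ns t h.tS, conj_sq d.t2 s, cent_conj ns h.ct, a1⟩
    by_cases a2 : Cm t (s * w * s⁻¹)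
    swap
    · exact ⟨_, ns w h.wS, conj_sq d.w2 s, cent_conj ns h.cw, a2⟩
    by_cases a3 : Cm t (s * r * s⁻¹)
    swap
    · exact ⟨_, ns r h.rS, conj_sq g₀.b2 s, cent_conj ns cr, a3⟩
    exfalso
    rcases c.iso (c.dp_conj d s) d.t2 (c.symm a1) (c.symm a2) with e | e | e | e
    · exact d.t1 e
    · exact mt e.symm
    · rw [e] at a3
      exact g₀.q ((c.conj_iff s).1 a3)
    · rw [e, ← conj_mul'] at a3
      exact c.gd_tw h.gd ((c.conj_iff s).1 a3)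
  -- (2)
  obtain ⟨u, f, uT, cu⟩ : ∃ u, Fr Cm w r t u ∧ u ∈ T ∧ ∀ g ∈ T, g * u = u * g := by
    have k : ∀ v ∈ T, v * v = 1 → (∀ g ∈ T, g * v = v * g) → ¬ Cm t v → Cm w v →
        ∃ u, Fr Cm w r t u ∧ u ∈ T ∧ ∀ g ∈ T, g * u = u * g := fun v vT v2 cv tv wv => by
      obtain ⟨u, f, e | e⟩ := c.fr_ex h.gd v2 (cv t h.tS).symm (cv r h.rS).symm wv tv
      · exact ⟨u, f, e ▸ vT, e ▸ cv⟩
      · exact ⟨u, f, e ▸ T.mul_mem h.wS vT, e ▸ cm h.cw cv⟩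
    by_cases wv : Cm w v
    · exact k v vT v2 cv tv wv
    have a1 : Cm (t * w) v := c.two' d.t2 d.w2 (cv t h.tS).symm (cv w h.wS).symm tv wv
    have a2 : ∀ a ∈ T, Cm t a → Cm w a → In4 t w a := fun a ha ta wa => by
      obtain ⟨n, hn⟩ := pw2 h.pg ha
      have := c.cA' (c.dp_symm d') a1 (cv t h.tS).symm tv (c.noY h.gd) (c.lmul ta wa) ta (cv a ha) (n := n)
        (by rw [pow_succ, pow_mul, hn, one_pow])
      exact in4_mul_r (in4_symm this (c.comm d'.cm).symm) d.t2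
    have vr := (cv r h.rS).symm
    have b1 : Cm w (v * r) := c.two d.w2 (cv w h.wS).symm g₀.ab.symm wv g₀.q
    have b2 : ¬ Cm t (v * r) := fun e => tv ((c.mul_iff' g₀.tb).1 e)
    have uT := T.mul_mem vT h.rS
    have cr : ∀ g ∈ T, g * r = r * g := fun g hg => by
      obtain ⟨e, he, a, b⟩ := c.dec d (h.ct g hg) (h.cw g hg) g₀.tb g₀.ab.symm g₀.q b1 (h.ct _ uT) b2
      have e1 := in4_comm (a2 _ (T.mul_mem hg (in4_mem he h.rS uT)) a b) (h.ct r h.rS).symm g₀.ab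
      have e2 : e * r = r * e := in4_comm he rfl (mul_comm' vr rfl)
      exact (comm_left (g := r) e1.symm e2.symm).symm
    exact k _ uT (sq_mul v2 g₀.b2 vr) (cm cv cr) b2 b1
  clear tv cv v2 vT v
  have f' := c.fr_symm f
  have u1 := c.fr_u1 f
  have tu1 : t * u ≠ 1 := fun e => f.q' ((c.mul_iff (c.refl t)).1 (e ▸ c.one t))
  -- (3)
  obtain ⟨x, g₁, xu⟩ := c.pure f g₀
  have m3 : ∀ e, In4 t u e → e ≠ 1 → s * e * s⁻¹ ≠ e := fun e he e1 ee =>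
    mx e (in4_mem he h.tS uT) ⟨x, in4_sq he f.t2 f.u2 f.tu, e1, f.w2, f.r2, f.wr, f.q, c.in4_cm f' he i1,
      c.in4_cm f' he i2, g₁.odd, (in4_comm he g₁.xt.symm xu.symm).symm, g₁.xa, g₁.xb⟩ (c4 he h.ct cu)
      (comm_of_conj ee)
  have ss : ∀ e, (∀ g ∈ T, g * e = e * g) → s * (s * e * s⁻¹) * s⁻¹ = e := fun e he => by
    rw [← conj_of_comm (he _ s2)]; nth_rewrite 1 [conj_of_comm (he _ s2)]; group
  have K : ∀ e, In4 t u e → e ≠ 1 → ¬ In4 t u (s * e * s⁻¹) := fun e he e1 he' => by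
    have ce := c4 he h.ct cu
    by_cases e2 : e * (s * e * s⁻¹) = 1
    · exact m3 e he e1 (by
        rw [eq_inv_of_mul_eq_one_right e2, inv_eq (in4_sq he f.t2 f.u2 f.tu)])
    · exact m3 _ (in4_mul he he' f.t2 f.u2 f.tu) e2 (by
        rw [conj_mul', ss e ce, ce _ (ns e (in4_mem he h.tS uT))])
  by_cases cr : ∀ g ∈ T, g * r = r * g
  swap
  -- (4)
  · have k : ∀ e ∈ T, (∀ g ∈ T, g * e = e * g) → In4 t u e ∨ ∃ q, In4 t u q ∧ e = w * q := fun e eT ce => by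
      obtain ⟨p, q, hp, hq, e'⟩ := c.ce16 f (ce w h.wS).symm (ce r h.rS).symm (ce t h.tS).symm (ce u uT).symm
      have cp : ∀ g ∈ T, g * p = p * g := cd (in4_sq hq f.t2 f.u2 f.tu) (e' ▸ ce) (c4 hq h.ct cu)
      rcases hp with rfl | rfl | rfl | rfl
      · exact .inl (by simpa [e'] using hq)
      · exact .inr ⟨q, hq, e'⟩
      · exact (cr cp).elim
      · exact (cr (cd f.w2 (f.wr ▸ cp) h.cw)).elim
    rcases k _ (ns t h.tS) (cent_conj ns h.ct) with e1 | ⟨q₁, h1, e1⟩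
    · exact K t i1 d.t1 e1
    rcases k _ (ns u uT) (cent_conj ns cu) with e2 | ⟨q₂, h2, e2⟩
    · exact K u i2 u1 e2
    refine K _ i3 tu1 ?_
    rw [conj_mul', e1, e2, mul_assoc, lcomm (h.cw _ (in4_mem h1 h.tS uT)), mul_cancel2 d.w2]
    exact in4_mul h1 h2 f.t2 f.u2 f.tu
  -- (5)
  have hH : ∀ g ∈ T, In16 w r t u g := fun g hg => c.ce16 f (h.cw g hg) (cr g hg) (h.ct g hg) (cu g hg)
  have nq : ¬ Cm (s * w * s⁻¹) (s * r * s⁻¹) := fun e => f.q ((c.conj_iff s).1 e)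
  have g' := c.gd_conj h.gd s
  have ia := hH _ (ns _ h.wS)
  have ib := hH _ (ns _ h.rS)
  have id' := hH _ (ns _ h.tS)
  rcases c.ov f h.gd g' id' ia ib with a1 | a1 <;> rcases c.ov f h.gd (c.gd_swap g') id' ib ia with a2 | a2
  · obtain ⟨α, β, ha, hb, e'⟩ := id'
    have k : ∀ {z}, In4 w r z → In4 w r (s * z * s⁻¹) → Cm α (s * z * s⁻¹) := fun hz hz' =>
      (c.lmul_iff' (c.in4_cm f' hb hz')).1 (e' ▸ c.conj s (c.in4_cm f' i1 hz))
    refine K t i1 d.t1 ?_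
    rwa [e', c.in4_gen f a1 a2 ha nq (k i1 a1) (k i2 a2), one_mul]
  · exact nq (c.in4_cm f a1 a2)
  · exact nq (c.symm (c.in4_cm f a2 a1))
  have l1 : ∀ e, In4 w r e → In4 t u (s * e * s⁻¹) := fun e he => by
    rcases he with rfl | rfl | rfl | rfl
    exacts [.inl (by simp), a1, a2, by rw [conj_mul']; exact in4_mul a1 a2 f.t2 f.u2 f.tu]
  have l2 : ∀ e, In4 t u e → In4 w r (s * e * s⁻¹) := fun e he => by
    obtain ⟨α, β, ha, hb, e'⟩ := hH _ (ns _ (in4_mem he h.tS uT))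
    have k : ∀ {z}, In4 w r z → Cm β (s * z * s⁻¹) := fun hz =>
      (c.lmul_iff (c.in4_cm f ha (l1 _ hz))).1 (e' ▸ c.conj s (c.in4_cm f' he hz))
    rwa [e', c.in4_gen f' a1 a2 hb nq (k i1) (k i2), mul_one]
  obtain ⟨p, q, hp, hq, e⟩ := hH _ s2
  have pT := in4_mem hp h.wS h.rS
  have cp := c4 hp h.cw cr
  have p2 := in4_sq hp f.w2 f.r2 f.wr
  have q2 := in4_sq hq f.t2 f.u2 f.tu
  have e1 : s * p * s⁻¹ * (s * q * s⁻¹) = p * q := by rw [← conj_mul', ← e]; group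
  have e2 : s * p * s⁻¹ * q = p * (s * q * s⁻¹) := by
    have q2' := conj_sq q2 s
    have cq := c4 hq h.ct cu
    have : s * p * s⁻¹ = p * q * (s * q * s⁻¹) := by rw [← e1, mul_assoc _ _ (s * q * s⁻¹), q2', mul_one]
    rw [this, mul_assoc, cq _ (ns _ (in4_mem hq h.tS uT)), mul_assoc, mul_cancel2 q2]
  have e3 : s * p * s⁻¹ * q = 1 := by
    have m1 := in4_mul (l1 p hp) hq f.t2 f.u2 f.tu
    have m2 := in4_mul hp (l2 q hq) f.w2 f.r2 f.wr
    rw [← e2] at m2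
    exact c.in4_eq_one f m2 (c.in4_cm f' m1 i1) (c.in4_cm f' m1 i2)
  have j2 : s * p * (s * p) = 1 := by
    rw [show s * p * (s * p) = s * p * s⁻¹ * (s * s) * p by group, e, ← cp q (in4_mem hq h.tS uT), ← mul_assoc, e3,
      one_mul, p2]
  have jc : ∀ g ∈ T, s * p * g * (s * p)⁻¹ = s * g * s⁻¹ := fun g hg => by
    rw [show s * p * g * (s * p)⁻¹ = s * (p * g * p⁻¹) * s⁻¹ by group, conj_of_comm (cp g hg).symm]
  have t4 := l2 t i1
  have dd : Dp Cm t (s * t * s⁻¹) := ⟨d.t2, conj_sq d.t2 s, d.t1, fun e => d.t1 (by simpa using e), mt.symm,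
    c.in4_cm f' i1 t4⟩
  obtain ⟨r₀, h0, n0⟩ : ∃ r₀, In4 w r r₀ ∧ ¬ Cm (s * t * s⁻¹) r₀ := by
    by_cases b1 : Cm (s * t * s⁻¹) w
    · exact ⟨r, i2, fun b2 => dd.w1 (c.in4_eq_one f t4 b1 b2)⟩
    · exact ⟨w, i1, b1⟩
  have rT := in4_mem h0 h.wS h.rS
  refine (c.swap dd j2 (jc t h.tS) (in4_sq h0 f.w2 f.r2 f.wr) (c.in4_cm f' i1 h0) (cent_conj ns h.ct _ rT) n0).2 ?_
  rw [jc _ rT]
  exact c.in4_cm f h0 (l1 _ h0)

end CL.D4.B
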